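import Groth.Agent.Fixpt.H926.LefAll
import Groth.Agent.Sga4h.H911.ZetaMain
import Groth.Agent.Sga4h.H616.TrCurveExt

/-!
# The constant case on smooth proper curves, unconditional (`ℓ` invertible)

`lefFor_pow`: `LefFor K (ℤ/ℓ^N)`; `defect_det`, `defect_trace`: the defect of the determinants and of the
traces vanishes for the constant sheaf on a smooth proper curve over a finite field (possibly disconnected).
-/

set_option autoImplicit false
universe u

open CategoryTheory CategoryTheory.Limits AlgebraicGeometry Opposite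

namespace Groth.Agent.Sga4h.H926.LefConst

open Groth.Agent.Sga4h

/-- The Lefschetz formula with coefficients `ℤ/ℓ^N`. -/
theorem lefFor_pow (k K : Type u) [Field k] [Field K] [Algebra k K] [IsAlgClosed K] (ℓ : ℕ)
    (hk : (ℓ : k) ≠ 0) (N : ℕ) : H915.CurveCase.LefFor K (ZMod (ℓ ^ N)) := by
  refine Groth.Agent.Fixpt.H926.LefAll.lefFor (ℓ ^ N) ?_
  rw [Nat.cast_pow, ← map_natCast (algebraMap k K) ℓ]
  exact pow_ne_zero _ ((map_ne_zero (algebraMap k K)).2 hk)

/-- The Lefschetz formula with coefficients `ℤ/ℓ`. -/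
theorem lefFor_one (k K : Type u) [Field k] [Field K] [Algebra k K] [IsAlgClosed K] (ℓ : ℕ)
    (hk : (ℓ : k) ≠ 0) : H915.CurveCase.LefFor K (ZMod ℓ) := by
  refine Groth.Agent.Fixpt.H926.LefAll.lefFor ℓ ?_
  rw [← map_natCast (algebraMap k K) ℓ]
  exact (map_ne_zero (algebraMap k K)).2 hk

variable (k K : Type u) [Field k] [Fintype k] [Field K] [Algebra k K] [Algebra.IsAlgebraic k K]
  [IsAlgClosed K] [Fact FinFr.PullExact.{u}]

/-- **The constant case of the L-function formula on smooth proper curves.** -/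
theorem defect_det {Y : Scheme.{u}} (a : Y ⟶ Spec (CommRingCat.of k)) [IsProper a]
    [SmoothOfRelativeDimension 1 a] (ℓ : ℕ) [Fact ℓ.Prime] (hk : (ℓ : k) ≠ 0) (Λ : Type) [Field Λ]
    [Finite Λ] [CharP Λ ℓ] (n N : ℕ) (hn : n ≤ N) :
    H925.Defs.defect K (H925.Defs.detInvN Λ n) a N (FinFr.constLam Λ Y) = 0 :=
  H911.ZetaMain.defect_const k K a ℓ hk (fun N => lefFor_pow k K ℓ hk (N + 1)) Λ n N hn

/-- **The constant case of the trace formula on smooth proper curves.** -/
theorem defect_trace {Y : Scheme.{u}} (a : Y ⟶ Spec (CommRingCat.of k)) [IsProper a]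
    [SmoothOfRelativeDimension 1 a] (Λ : Type) [Field Λ] [Finite Λ]
    (hk : (ringChar Λ : k) ≠ 0) :
    H925.Defs.defect K (H925.DetInv.traceInv Λ) a 1 (FinFr.constLam Λ Y) = 0 := by
  have : Fact (ringChar Λ).Prime := ⟨CharP.prime_ringChar Λ⟩
  exact H616.TrCurve.defect_const_all (ringChar Λ) rfl (lefFor_one k K _ hk) a

end Groth.Agent.Sga4h.H926.LefConst
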